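import Cfsg.Agent.H805.K4.TitsSyl
import Cfsg.Agent.H707.RowTits

/-!
# The Sylow 2-subgroups of the Tits group (helper805)

`frattini_tits : Lie.IsoTits S → ∀ P : Sylow 2 S, (frattini P).index = 4` (the other side of row (A) of S4547: there are
exactly four `σ`-fixed characters of odd degree).
-/

set_option autoImplicit false

namespace Cfsg.Agent.H805.K4.TitsSyl

open Cfsg Subgroup

theorem twoGen_tits {S : Type*} [Group S] (h : Lie.IsoTits S) (P : Sylow 2 S) : TwoGen ↥(P : Subgroup S) := by
  obtain ⟨e₀⟩ := h
  obtain ⟨f⟩ := H707.RowTits.equiv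
  have e := (e₀.trans f).symm
  have hr : (P : Subgroup S) ≤ e.toMonoidHom.range := by
    rw [MonoidHom.range_eq_top.2 e.surjective]
    exact le_top
  have h1 := twoGen_T (P.comapOfInjective e.toMonoidHom e.injective hr)
  exact h1.congr (e.subgroupMap _ |>.trans (MulEquiv.subgroupCongr (by
      show ((P : Subgroup S).comap e.toMonoidHom).map e.toMonoidHom = P
      exact map_comap_eq_self hr)))

theorem frattini_tits {S : Type*} [Group S] [Finite S] (h : Lie.IsoTits S) (P : Sylow 2 S) :
    (frattini ↥(P : Subgroup S)).index = 4 := (twoGen_tits h P).index_frattini P.2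

end Cfsg.Agent.H805.K4.TitsSyl
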